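import Cfsg.Agent.TwoF.XE.Lo

/-!
# TwoF : offenders of order `p ^ 2` (helper33)

* `sq` : a non-cubic offender of order `p ^ 2` contains a subgroup of order `p` that is invariant under its normaliser.
* `row88_of_sq` : `p ^ 3` does not divide `|Aut S|`, `P ≤ S` has order `p ^ 2` and `N ≤ N_S(P)` is irreducible on `P`.
* `row88_of_swap` : `P = ⟨a, b⟩`, `g` inverts `a` and centralises `b`, `h` exchanges `⟨a⟩` and `⟨b⟩`.
-/

set_option autoImplicit false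
set_option maxHeartbeats 400000

namespace Cfsg.Agent.TwoF.XS

open Module Gen Subgroup

variable {p : ℕ} [Fact p.Prime]

section grp

variable {Y : Type*} [Group Y] [Finite Y] {A R R' : Subgroup Y}

theorem card_eq_of_sq (hc : Nat.card A = p ^ 2) (h : R ≤ A) (h0 : R ≠ ⊥) (h1 : R ≠ A) : Nat.card R = p := by
  obtain ⟨i, hi, h3⟩ := (Nat.dvd_prime_pow Fact.out).1 (hc ▸ card_dvd_of_le h)
  interval_cases i
  · exact absurd (card_eq_one.1 h3) h0
  · rwa [pow_one] at h3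
  · exact absurd (eq_of_le_of_card_ge h (by rw [hc, h3])) h1

theorem inf_sup_of_sq (hc : Nat.card A = p ^ 2) (h : R ≤ A) (h0 : R ≠ ⊥) (h1 : R ≠ A) (h' : R' ≤ A) (h0' : R' ≠ ⊥)
    (h1' : R' ≠ A) (hne : R ≠ R') : R ⊓ R' = ⊥ ∧ R ⊔ R' = A := by
  have a1 := card_eq_of_sq hc h h0 h1
  have a2 := card_eq_of_sq hc h' h0' h1'
  constructor
  · by_contra e
    have a3 := card_eq_of_sq hc (inf_le_left.trans h) e fun e' => h1 (le_antisymm h (e'.ge.trans inf_le_left))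
    exact hne ((eq_of_le_of_card_ge inf_le_left (a1.trans a3.symm).le).symm.trans
      (eq_of_le_of_card_ge inf_le_right (a2.trans a3.symm).le))
  · by_contra e
    have a3 := card_eq_of_sq hc (sup_le h h') (fun e' => h0 (eq_bot_iff.2 (le_sup_left.trans e'.le))) e
    exact hne ((eq_of_le_of_card_ge le_sup_left (a3.trans a1.symm).le).trans
      (eq_of_le_of_card_ge le_sup_right (a3.trans a2.symm).le).symm)

end grp

section rep

variable {Y : Type*} [Group Y] {V : Type*} [AddCommGroup V] [Module (ZMod p) V] {ρ : Representation (ZMod p) Y V}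
  {A : Subgroup Y}

theorem tri_add_right (φ : V →ₗ[ZMod p] ZMod p) (v w : V) (a b c : Y) :
    tri ρ φ (v + w) a b c = tri ρ φ v a b c + tri ρ φ w a b c := by simp only [tri, map_add]

theorem tri_conj (φ : V →ₗ[ZMod p] ZMod p) (v : V) (g a b c : Y) :
    tri ρ φ v (g * a * g⁻¹) (g * b * g⁻¹) (g * c * g⁻¹) = tri ρ (φ ∘ₗ ρ g) (ρ g⁻¹ v) a b c := by
  have h : ∀ x, ρ g⁻¹ (ρ g x) = x := fun x => by rw [← rho_mul, inv_mul_cancel, map_one, Module.End.one_apply]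
  rw [tri, conj_sub_one, conj_sub_one, conj_sub_one, h, h, tri, LinearMap.comp_apply]

theorem trad_le {v : V} (hv : v ∈ asc ρ A 4) (φ : V →ₗ[ZMod p] ZMod p) : trad hv φ ≤ A := fun _ h => (mem_trad.1 h).1

variable [Finite V] [Finite Y]

theorem trad_ne_bot (hA : Off p ρ A) {v : V} (hv : v ∈ asc ρ A 4) (φ : V →ₗ[ZMod p] ZMod p) : trad hv φ ≠ ⊥ := by
  intro e
  by_cases h3 : v ∈ asc ρ A 3
  · refine hA.2.1 (eq_bot_iff.2 fun a ha => e.le (mem_trad.2 ⟨ha, fun b hb c hc => ?_⟩))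
    by_contra h
    exact notMem_asc_of_tri ha hb hc h h3
  · obtain ⟨a, ha, h1, h2⟩ := hA.exists_rad hv h3 φ
    exact h1 (mem_bot.1 (e.le (mem_trad.2 ⟨ha, h2⟩)))

theorem trad_sum (hA : Off p ρ A) (hc : Nat.card A = p ^ 2) {v₁ v₂ v : V} (h₁ : v₁ ∈ asc ρ A 4) (h₂ : v₂ ∈ asc ρ A 4)
    (hv : v ∈ asc ρ A 4) {φ₁ φ₂ φ : V →ₗ[ZMod p] ZMod p}
    (e : ∀ a ∈ A, ∀ b ∈ A, ∀ c ∈ A, tri ρ φ v a b c = tri ρ φ₁ v₁ a b c + tri ρ φ₂ v₂ a b c) (n₁ : trad h₁ φ₁ ≠ A)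
    (n₂ : trad h₂ φ₂ ≠ A) : trad h₁ φ₁ = trad h₂ φ₂ := by
  by_contra hne
  obtain ⟨a1, a2⟩ := inf_sup_of_sq hc (trad_le h₁ φ₁) (trad_ne_bot hA h₁ φ₁) n₁ (trad_le h₂ φ₂) (trad_ne_bot hA h₂ φ₂)
    n₂ hne
  refine trad_ne_bot hA hv φ (eq_bot_iff.2 fun a ha => a1.le ?_)
  obtain ⟨ha, h0⟩ := mem_trad.1 ha
  have key : ∀ {w : V} (hw : w ∈ asc ρ A 4) (ψ : V →ₗ[ZMod p] ZMod p),
      (∀ b ∈ trad h₁ φ₁, ∀ c ∈ A, tri ρ ψ w b a c = 0) → (∀ b ∈ trad h₂ φ₂, ∀ c ∈ A, tri ρ ψ w b a c = 0) →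
      a ∈ trad hw ψ := fun {w} hw ψ k₁ k₂ => mem_trad.2 ⟨ha, fun b hb c hc => by
    have h3 : A ≤ kerOn A (fun (c : A) b => tri ρ ψ w b a c) fun c => tri_addOn hw ψ ha c.2 :=
      a2.ge.trans (sup_le (fun b hb => ⟨trad_le _ _ hb, fun c => k₁ b hb c c.2⟩)
        fun b hb => ⟨trad_le _ _ hb, fun c => k₂ b hb c c.2⟩)
    rw [tri_swap₁ (elemAb_comm hA.1 ha hb)]
    exact (h3 hb).2 ⟨c, hc⟩⟩
  have h4 : ∀ b ∈ A, ∀ c ∈ A, tri ρ φ₁ v₁ b a c + tri ρ φ₂ v₂ b a c = 0 := fun b hb c hc => by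
    rw [← e b hb a ha c hc, tri_swap₁ (elemAb_comm hA.1 hb ha), h0 b hb c hc]
  refine ⟨key h₁ φ₁ (fun b hb c hc => (mem_trad.1 hb).2 a ha c hc) fun b hb c hc => ?_,
    key h₂ φ₂ (fun b hb c hc => ?_) fun b hb c hc => (mem_trad.1 hb).2 a ha c hc⟩
  · have h5 := h4 b (trad_le _ _ hb) c hc
    rwa [(mem_trad.1 hb).2 a ha c hc, add_zero] at h5
  · have h5 := h4 b (trad_le _ _ hb) c hc
    rwa [(mem_trad.1 hb).2 a ha c hc, zero_add] at h5

theorem trad_le_trad (hA : Off p ρ A) (hc : Nat.card A = p ^ 2) {v w : V} (hv : v ∈ asc ρ A 4) (hw : w ∈ asc ρ A 4)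
    {φ : V →ₗ[ZMod p] ZMod p} (n : trad hv φ ≠ A) (ψ : V →ₗ[ZMod p] ZMod p) : trad hv φ ≤ trad hw ψ := by
  by_contra h
  have n' : trad hw ψ ≠ A := fun e => h ((trad_le _ _).trans e.ge)
  have hs := add_mem hv hw
  have a1 : trad hv ψ = A := by
    by_contra e
    exact h ((trad_sum hA hc hv hv hv (fun a _ b _ c _ => tri_add_left φ ψ v a b c) n e).trans
      (trad_sum hA hc hv hw hs (fun a _ b _ c _ => tri_add_right ψ v w a b c) e n')).le
  have a2 : trad hw φ = A := by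
    by_contra e
    exact h ((trad_sum hA hc hv hw hs (fun a _ b _ c _ => tri_add_right φ v w a b c) n e).trans
      (trad_sum hA hc hw hw hw (fun a _ b _ c _ => tri_add_left φ ψ w a b c) e n')).le
  refine h (trad_sum hA hc hv hw hs (φ := φ + ψ) (fun a ha b hb c hc => ?_) n n').le
  rw [tri_add_left, tri_add_right, tri_add_right, (mem_trad.1 (a1.ge ha)).2 b hb c hc,
    (mem_trad.1 (a2.ge ha)).2 b hb c hc, add_zero, zero_add]

/-- **Sq lemma** -/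
theorem sq (hA : Off p ρ A) (hc : Nat.card A = p ^ 2) (hn : ¬ Cub ρ A) : ¬ IrrOn A (normalizer (A : Set Y)) := by
  intro hi
  obtain ⟨v, hv, h3⟩ := exists_asc_four (p := p) (elemAb_isPGroup hA.1) hn
  obtain ⟨φ, a, ha, b, hb, c, hc', h4⟩ := exists_tri_ne h3
  have n : trad hv φ ≠ A := fun e => h4 ((mem_trad.1 (e.ge ha)).2 b hb c hc')
  refine (hi _ (trad_le hv φ) fun g hg d hd => ?_).elim (trad_ne_bot hA hv φ) n
  refine mem_trad.2 ⟨(mem_normalizer_iff.1 hg d).1 (trad_le _ _ hd), fun e he f hf => ?_⟩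
  have h5 := tri_conj (ρ := ρ) φ v g d (g⁻¹ * e * g) (g⁻¹ * f * g)
  simp only [mul_assoc, mul_inv_cancel_left, mul_inv_cancel, mul_one] at h5
  rw [mul_assoc, h5]
  exact (mem_trad.1 (trad_le_trad hA hc hv (inv_asc le_rfl 4 _ (inv_mem hg) v hv) n _ hd)).2 _
    (by simpa only [mul_assoc] using conj_mem_of_normalizer' hg he) _
    (by simpa only [mul_assoc] using conj_mem_of_normalizer' hg hf)

end rep

variable {S : Type} [Group S] [Finite S]

/-- Sylow subgroups of order `p ^ 2` on which the normaliser is irreducible -/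
theorem row88_of_sq (h3 : ¬ p ^ 3 ∣ Nat.card (MulAut S)) {P N : Subgroup S} (hP : Nat.card P = p ^ 2)
    (hN : N ≤ normalizer (P : Set S)) (hi : IrrOn P N) : Row88 p S := row88_of_sit fun Y _ _ V _ _ _ K ρ π φ H A hA => by
  by_cases hc : Cub ρ A
  · exact ⟨A, hA, hc⟩
  exfalso
  have hp : p.Prime := Fact.out
  have hAp := elemAb_isPGroup hA.1
  have hinj : Function.Injective (MulAut.conj : S →* MulAut S) := (injective_iff_map_eq_one _).2 fun s hs => by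
    obtain ⟨x, rfl⟩ := H.surj s
    exact H.toFrm.π_eq_one_iff.2 (H.toFrm.φ_eq_one_iff.1 ((H.toFrm.φ_coe x).trans hs))
  have h1 : Nat.card (P.map MulAut.conj) = p ^ 2 := (card_map_of_injective hinj).trans hP
  have h2 : Nat.card A = p ^ 2 := by
    obtain ⟨r, hr⟩ := hAp.exists_card_eq
    have a1 := (pow_dvd_pow p (Nat.succ_le_succ (one_le_small p))).trans (hA.pow_dvd_of_not_cub hc)
    have a2 : ¬ p ^ 3 ∣ Nat.card A := fun d =>
      h3 (d.trans (H.toStp.card_map H.toFrm hAp ▸ card_subgroup_dvd_card _))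
    rw [hr, Nat.pow_dvd_pow_iff_le_right hp.one_lt] at a1 a2
    rw [hr, show r = 2 by omega]
  obtain ⟨β, hβ⟩ := XE.exists_conj_le (IsPGroup.of_card h1) (fun d => h3 (by
    rw [← (P.map MulAut.conj).card_mul_index, h1]
    exact (pow_succ p 2).symm ▸ mul_dvd_mul_left _ d)) (hAp.map φ)
  replace H := H.twist β
  rw [map_map] at hβ
  generalize β.toMonoidHom.comp π = π' at H
  generalize (MulAut.conj β).toMonoidHom.comp φ = φ' at H hβ
  have h4 : A.map φ' = P.map MulAut.conj :=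
    eq_of_le_of_card_ge hβ (by rw [h1, H.toStp.card_map H.toFrm hAp, h2])
  have h5 : ¬ p ∣ Nat.card φ'.ker := H.ker_φ ▸ H.toStp.not_dvd_card le_rfl
  have h6 := map_normalizer_inf_comap φ' h5 hAp (N := N.map MulAut.conj)
    ((map_le_range _ _).trans (H.toFrm.map_K.ge.trans (map_le_range _ _))) (h4 ▸ (map_mono hN).trans (le_normalizer_map _))
  have h7 := injOn_of_not_dvd φ' h5 hAp
  refine sq hA h2 hc fun E hE hn => ?_
  have h8 : (E.map φ').comap MulAut.conj ≤ P := fun x hx => by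
    obtain ⟨y, hy, e⟩ := h4.le (map_mono hE hx)
    exact hinj e ▸ hy
  rcases hi _ h8 (fun g hg x hx => by
    obtain ⟨y, hy, e⟩ := h6.ge ⟨g, hg, rfl⟩
    obtain ⟨z, hz, e'⟩ := hx
    exact ⟨_, hn y hy.1 z hz, by rw [map_mul, map_mul, map_inv, map_mul, map_mul, map_inv, e, e']⟩) with h9 | h9
  · refine Or.inl (eq_bot_iff.2 fun x hx => ?_)
    obtain ⟨s, -, e⟩ := h4.le ⟨x, hE hx, rfl⟩
    have a1 : s = 1 := mem_bot.1 (h9.le ⟨x, hx, e.symm⟩)
    exact h7 (hE hx) (one_mem A) (by rw [← e, a1, map_one, map_one])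
  · refine Or.inr (le_antisymm hE fun x hx => ?_)
    obtain ⟨s, hs, e⟩ := h4.le ⟨x, hx, rfl⟩
    obtain ⟨y, hy, e'⟩ := h9.ge hs
    exact h7 (hE hy) hx (e'.trans e) ▸ hy

/-- the case of a wreath product -/
theorem row88_of_swap (h2 : p ≠ 2) (h3 : ¬ p ^ 3 ∣ Nat.card (MulAut S)) {a b g h : S} (a1 : a ≠ 1) (ap : a ^ p = 1)
    (ab : a * b = b * a) (ga : g * a * g⁻¹ = a⁻¹) (gb : g * b * g⁻¹ = b) (ha : h * a * h⁻¹ = b)
    (hb : h * b * h⁻¹ ∈ zpowers a) : Row88 p S := by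
  have hp : p.Prime := Fact.out
  have b1 : b ≠ 1 := fun e => a1 (by rwa [← ha, conj_eq_one_iff] at e)
  have bp : b ^ p = 1 := by rw [← ha, conj_pow, ap, mul_one, mul_inv_cancel]
  have oa : Nat.card (zpowers a) = p := by rw [Nat.card_zpowers, orderOf_eq_prime ap a1]
  have ob : Nat.card (zpowers b) = p := by rw [Nat.card_zpowers, orderOf_eq_prime bp b1]
  have hc : Commute a b := ab
  have two : ∀ {x : S}, x ^ p = 1 → x ≠ 1 → ∀ {E : Subgroup S} {i : ℤ}, x ^ i ≠ 1 → x ^ i * x ^ i ∈ E → x ∈ E := by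
    intro x x1 x2 E i h1 h4
    have k1 : Nat.card (zpowers x) = p := by rw [Nat.card_zpowers, orderOf_eq_prime x1 x2]
    have : Fact (Nat.card (zpowers x)).Prime := ⟨k1 ▸ hp⟩
    rcases (E.subgroupOf (zpowers x)).eq_bot_or_eq_top_of_prime_card with e | e
    · have k2 : x ^ i * x ^ i = 1 := congrArg Subtype.val
        (mem_bot.1 (e.le (show (⟨_, mul_mem (zpow_mem_zpowers x i) (zpow_mem_zpowers x i)⟩ : zpowers x) ∈ _ from h4)))
      have k3 : (x ^ i) ^ p = 1 := by rw [← zpow_natCast, ← zpow_mul, mul_comm, zpow_mul, zpow_natCast, x1, one_zpow]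
      have k4 := orderOf_dvd_of_pow_eq_one (x := x ^ i) (n := 2) (by rw [pow_two, k2])
      rw [orderOf_eq_prime k3 h1] at k4
      exact absurd ((Nat.prime_dvd_prime_iff_eq hp Nat.prime_two).1 k4) h2
    · exact e.ge (mem_top (⟨x, mem_zpowers x⟩ : zpowers x))
  have hab : zpowers a ⊓ zpowers b = ⊥ := eq_bot_iff.2 fun x hx => by
    by_contra e
    obtain ⟨⟨i, rfl⟩, j, hj⟩ := hx
    have k1 : g * a ^ i * g⁻¹ = a ^ i := by
      have k : b ^ j = a ^ i := hj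
      rw [← k, ← conj_zpow, gb]
    rw [← conj_zpow, ga, inv_zpow, inv_eq_iff_mul_eq_one] at k1
    exact a1 (mem_bot.1 (two ap a1 (E := ⊥) e (mem_bot.2 k1)))
  let f : zpowers a × zpowers b →* S := MonoidHom.noncommCoprod (zpowers a).subtype (zpowers b).subtype (by
    rintro ⟨_, i, rfl⟩ ⟨_, j, rfl⟩
    exact hc.zpow_zpow i j)
  have hf : ∀ x, x ∈ f.range ↔ ∃ i j : ℤ, a ^ i * b ^ j = x := fun x =>
    ⟨by rintro ⟨⟨⟨_, i, rfl⟩, _, j, rfl⟩, rfl⟩; exact ⟨i, j, rfl⟩,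
      by rintro ⟨i, j, rfl⟩; exact ⟨(⟨_, i, rfl⟩, ⟨_, j, rfl⟩), rfl⟩⟩
  have hfi : Function.Injective f := (injective_iff_map_eq_one _).2 fun x hx => by
    have k1 : (x.1 : S) = (x.2 : S)⁻¹ := eq_inv_of_mul_eq_one_left hx
    have k2 : (x.1 : S) = 1 := mem_bot.1 (hab.le ⟨x.1.2, k1 ▸ (zpowers b).inv_mem x.2.2⟩)
    rw [k2, eq_comm, inv_eq_one] at k1
    exact Prod.ext (Subtype.ext k2) (Subtype.ext k1)
  have ma : a ∈ f.range := (hf _).2 ⟨1, 0, by simp⟩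
  have mb : b ∈ f.range := (hf _).2 ⟨0, 1, by simp⟩
  have nm : ∀ x, x * a * x⁻¹ ∈ f.range → x * b * x⁻¹ ∈ f.range → x ∈ normalizer (f.range : Set S) := fun x x1 x2 =>
    mem_normalizer_fintype fun y hy => by
      obtain ⟨i, j, rfl⟩ := (hf _).1 hy
      rw [← conj_mul, ← conj_zpow, ← conj_zpow]
      exact mul_mem (zpow_mem x1 i) (zpow_mem x2 j)
  have ng := nm g (ga ▸ inv_mem ma) (gb.symm ▸ mb)
  have nh := nm h (ha.symm ▸ mb) (zpowers_le.2 ma hb)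
  refine row88_of_sq h3 (P := f.range) ?_ le_rfl fun E hE hn => ?_
  · rw [← Nat.card_congr (MonoidHom.ofInjective hfi).toEquiv, Nat.card_prod, oa, ob, pow_two]
  by_cases e : E = ⊥
  · exact Or.inl e
  obtain ⟨⟨x, hx⟩, x1⟩ := ne_bot_iff_exists_ne_one.1 e
  obtain ⟨i, j, rfl⟩ := (hf _).1 (hE hx)
  have k1 := hn g ng _ hx
  rw [← conj_mul, ← conj_zpow, ← conj_zpow, ga, gb, inv_zpow] at k1
  have k2 : a ∈ E := by
    by_cases e1 : a ^ i = 1
    · have k3 : b ∈ E := two bp b1 (i := j) (fun e2 => x1 (Subtype.ext (show _ * _ = 1 by rw [e1, e2, one_mul])))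
        (by simpa only [e1, one_mul] using mul_mem hx hx)
      have k4 := hn _ (inv_mem nh) _ k3
      rwa [← ha, inv_inv, ← mul_assoc, ← mul_assoc, inv_mul_cancel, one_mul, inv_mul_cancel_right] at k4
    · exact two ap a1 e1 (by simpa only [mul_inv_rev, inv_inv, mul_assoc, mul_inv_cancel_left] using mul_mem hx (inv_mem k1))
  refine Or.inr (le_antisymm hE fun y hy => ?_)
  obtain ⟨i, j, rfl⟩ := (hf _).1 hy
  exact mul_mem (zpow_mem k2 i) (zpow_mem (ha ▸ hn h nh a k2) j)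

end Cfsg.Agent.TwoF.XS
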